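import Cfsg.Agent.H614.AMod.Main
import Cfsg.Agent.H887.DS.Twelve
import Cfsg.Agent.H887.DS.SixFive
import Cfsg.Agent.S0256

/-!
# Cores with simple quotient `A_8` in characteristic 2

`alt8_two` : `n = 4`, or `n = 6` and `SD P`; always `Fr P 2`.
-/

set_option autoImplicit false
set_option linter.unusedSectionVars false

namespace Cfsg.Agent.H614.AMod.Main

open Equiv Equiv.Perm Cfsg Cfsg.Geo Matrix
open Cfsg.Agent.H614.AMod Cfsg.Agent.H915.LD Cfsg.Agent.H964.AltMod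

universe u

theorem types8 (σ : Perm (Fin 8)) (h : Odd (orderOf σ)) :
    σ.cycleType = 0 ∨ σ.cycleType = {3} ∨ σ.cycleType = {5} ∨ σ.cycleType = {7} ∨
      σ.cycleType = {3, 3} ∨ σ.cycleType = {5, 3} := by
  have hs : σ.cycleType.sum ≤ 8 := by
    rw [Equiv.Perm.sum_cycleType]
    have := Finset.card_le_univ σ.support
    simpa using this
  have h1 := E9.types_aux σ.cycleType (by
    intro n hn
    have h1 := Equiv.Perm.dvd_of_mem_cycleType hn
    have h2 := Equiv.Perm.two_le_of_mem_cycleType hn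
    have h3 : Odd n := Odd.of_dvd_nat h h1
    refine ⟨?_, h3⟩
    rw [Nat.odd_iff] at h3
    omega) (by omega)
  rcases h1 with h | h | h | h | h | h | h | h
  · exact Or.inl h
  · exact Or.inr (Or.inl h)
  · exact Or.inr (Or.inr (Or.inl h))
  · exact Or.inr (Or.inr (Or.inr (Or.inl h)))
  · rw [h] at hs
    simp at hs
  · exact Or.inr (Or.inr (Or.inr (Or.inr (Or.inl h))))
  · exact Or.inr (Or.inr (Or.inr (Or.inr (Or.inr h))))
  · rw [h] at hs
    simp at hs

/-- conjugation by an even permutation -/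
theorem ec_of8 {σ r h : Perm (Fin 8)} (hc : σ.cycleType = r.cycleType) (hs : sign h = 1)
    (e : h * r * h⁻¹ = r ^ 2) : ∃ τ : Perm (Fin 8), sign τ = 1 ∧ τ * σ * τ⁻¹ = σ ^ 2 := by
  obtain ⟨g, hg⟩ := isConj_iff.1 (isConj_iff_cycleType_eq.2 hc.symm)
  refine ⟨g * h * g⁻¹, ?_, ?_⟩
  · rw [Perm.sign_mul, Perm.sign_mul, hs, mul_one, ← Perm.sign_mul, mul_inv_cancel, Perm.sign_one]
  · rw [← hg, conj_pow, ← e]
    group

/-- representatives -/
def s3 : Perm (Fin 8) := swap 0 1 * swap 1 2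
def s33 : Perm (Fin 8) := swap 0 1 * swap 1 2 * (swap 3 4 * swap 4 5)
def s5 : Perm (Fin 8) := swap 0 1 * swap 1 2 * swap 2 3 * swap 3 4
def s53 : Perm (Fin 8) := swap 0 1 * swap 1 2 * swap 2 3 * swap 3 4 * (swap 5 6 * swap 6 7)
def s7 : Perm (Fin 8) := swap 0 1 * swap 1 2 * swap 2 3 * swap 3 4 * swap 4 5 * swap 5 6

theorem cs3 : s3.cycleType = {3} := by decide +kernel
theorem cs33 : s33.cycleType = {3, 3} := by decide +kernel
theorem cs5 : s5.cycleType = {5} := by decide +kernel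
theorem cs53 : s53.cycleType = {5, 3} := by decide +kernel
theorem cs7 : s7.cycleType = {7} := by decide +kernel

def h3 : Perm (Fin 8) := ⟨![0, 2, 1, 3, 4, 5, 7, 6], ![0, 2, 1, 3, 4, 5, 7, 6], by decide, by decide⟩
def h33 : Perm (Fin 8) := ⟨![0, 2, 1, 3, 5, 4, 6, 7], ![0, 2, 1, 3, 5, 4, 6, 7], by decide, by decide⟩
def h5 : Perm (Fin 8) := ⟨![0, 2, 4, 1, 3, 5, 7, 6], ![0, 3, 1, 4, 2, 5, 7, 6], by decide, by decide⟩
def h53 : Perm (Fin 8) := ⟨![0, 2, 4, 1, 3, 5, 7, 6], ![0, 3, 1, 4, 2, 5, 7, 6], by decide, by decide⟩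
def h7 : Perm (Fin 8) := ⟨![0, 2, 4, 6, 1, 3, 5, 7], ![0, 4, 1, 5, 2, 6, 3, 7], by decide, by decide⟩

theorem sq_conj8 (σ : Perm (Fin 8)) (h : Odd (orderOf σ)) :
    ∃ τ : Perm (Fin 8), sign τ = 1 ∧ τ * σ * τ⁻¹ = σ ^ 2 := by
  rcases types8 σ h with h | h | h | h | h | h
  · rw [cycleType_eq_zero] at h
    exact ⟨1, Perm.sign_one, by rw [h]; simp⟩
  · exact ec_of8 (h := h3) (h.trans cs3.symm) (by decide) (by decide)
  · exact ec_of8 (h := h5) (h.trans cs5.symm) (by decide) (by decide)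
  · exact ec_of8 (h := h7) (h.trans cs7.symm) (by decide) (by decide)
  · exact ec_of8 (h := h33) (h.trans cs33.symm) (by decide) (by decide)
  · exact ec_of8 (h := h53) (h.trans cs53.symm) (by decide) (by decide)

variable {ι : Type} [Fintype ι] [DecidableEq ι] {F : Type u} [Field F] [Finite F] {P : Subgroup (GL ι F)}

/-- **`A_8` in characteristic 2**: `Fr P 2`. -/
theorem alt8_fr [CharP F 2] (hC : Core P) (e : Soc P ≃* alternatingGroup (Fin 8)) (hn : Fintype.card ι ≤ 12) :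
    Fr P 2 := by
  haveI : Fact (Nat.Prime 2) := ⟨Nat.prime_two⟩
  rcases H825.Spin.alt_red hC 2 e le_rfl hn with ⟨φ, -⟩ | h
  · apply Fr.of_reg' 2
    intro g hg h3
    have ho : Odd (orderOf ((φ ⟨g, hg⟩ : alternatingGroup (Fin 8)) : Perm (Fin 8))) := by
      rw [Subgroup.orderOf_coe, MulEquiv.orderOf_eq, Subgroup.orderOf_mk]
      rwa [← Nat.not_even_iff_odd, even_iff_two_dvd]
    obtain ⟨τ, hτ, hτa⟩ := sq_conj8 _ ho
    let t : alternatingGroup (Fin 8) := ⟨τ, mem_alternatingGroup.mpr hτ⟩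
    have e1 : (φ ⟨g, hg⟩) ^ 2 = t * φ ⟨g, hg⟩ * t⁻¹ := by
      apply Subtype.ext
      rw [Subgroup.coe_pow, ← hτa]
      rfl
    have h4 : LinearMap.trace F (ι → F) (rep φ ((φ ⟨g, hg⟩) ^ 2)) = LinearMap.trace F (ι → F) (rep φ (φ ⟨g, hg⟩)) := by
      rw [e1, E9.trace_conj]
    rw [← map_pow, trace_rep, trace_rep] at h4
    have h5 := tr_pow_char 2 g 1
    rw [pow_one] at h5
    rw [← h5]
    exact h4
  · exact absurd rfl h.2.2.1

/-- **`A_8` in characteristic 2**: the dimensions. -/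
theorem alt8_two [CharP F 2] (hC : Core P) (e : Soc P ≃* alternatingGroup (Fin 8)) (hn : Fintype.card ι ≤ 12) :
    Fintype.card ι = 4 ∨ (Fintype.card ι = 6 ∧ SD P) := by
  haveI : Fact (Nat.Prime 2) := ⟨Nat.prime_two⟩
  obtain ⟨f⟩ := S0256.result (F := ZMod 2) (ZMod.card 2)
  let Φ : Soc P ≃* ProjectiveSpecialLinearGroup (Fin 4) (ZMod 2) := e.trans f.symm
  rcases Nat.lt_or_ge (Fintype.card ι) 12 with h | h
  · rcases H887.DS.dim4 2 hC Φ h with h4 | h4 | h4
    · exact Or.inl h4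
    · exact Or.inr ⟨h4, H887.DS.six4 2 hC Φ h4⟩
    · omega
  · exact (H887.DS.not_twelve 2 hC (by norm_num) (by norm_num) (by omega) Φ).elim

end Cfsg.Agent.H614.AMod.Main
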